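import Mathlib
import Cfsg.Agent.Lib.Helper1.Hall
import Cfsg.Agent.Lib.Helper49.SAF.Iface

/-!
# SAF project (S4025), package [EXC81]

A solvable group of linear automorphisms of `𝔽₃⁴` has order prime to `65`.
-/

set_option autoImplicit false

universe u v

namespace Cfsg.Agent.Lib.Helper93.SAF

/-- a group of order `65` contains commuting elements of orders `5` and `13` -/
theorem comm65 {G : Type*} [Group G] [Finite G] (hG : Nat.card G = 65) :
    ∃ x y : G, orderOf x = 5 ∧ orderOf y = 13 ∧ Commute x y := by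
  have : Fact (Nat.Prime 5) := ⟨by norm_num⟩
  have : Fact (Nat.Prime 13) := ⟨by norm_num⟩
  have key : ∀ (p : ℕ) [Fact p.Prime], (∀ n : ℕ, n ∣ 65 → n ≡ 1 [MOD p] → n = 1) →
      Subsingleton (Sylow p G) := by
    intro p _ hp
    have P : Sylow p G := default
    have h1 := card_sylow_modEq_one p G
    have h2 : Nat.card (Sylow p G) ∣ 65 :=
      (P.card_dvd_index).trans (hG ▸ Subgroup.index_dvd_card (P : Subgroup G))
    have h3 := hp _ h2 h1
    exact (Nat.card_eq_one_iff_unique.mp h3).1
  have div65 : ∀ n : ℕ, n ∣ 65 → n = 1 ∨ n = 5 ∨ n = 13 ∨ n = 65 := by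
    intro n hn
    have hle : n ≤ 65 := Nat.le_of_dvd (by norm_num) hn
    interval_cases n <;> revert hn <;> decide
  have s5 : Subsingleton (Sylow 5 G) := key 5 (by
    intro n hn h
    rcases div65 n hn with rfl | rfl | rfl | rfl
    · rfl
    all_goals exact absurd h (by decide))
  have s13 : Subsingleton (Sylow 13 G) := key 13 (by
    intro n hn h
    rcases div65 n hn with rfl | rfl | rfl | rfl
    · rfl
    all_goals exact absurd h (by decide))
  obtain ⟨x, hx⟩ := exists_prime_orderOf_dvd_card' (G := G) 5 (by rw [hG]; norm_num)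
  obtain ⟨y, hy⟩ := exists_prime_orderOf_dvd_card' (G := G) 13 (by rw [hG]; norm_num)
  have hxp : IsPGroup 5 (Subgroup.zpowers x) :=
    IsPGroup.of_card (n := 1) (by rw [Nat.card_zpowers, hx, pow_one])
  have hyp : IsPGroup 13 (Subgroup.zpowers y) :=
    IsPGroup.of_card (n := 1) (by rw [Nat.card_zpowers, hy, pow_one])
  obtain ⟨P, hP⟩ := hxp.exists_le_sylow
  obtain ⟨Q, hQ⟩ := hyp.exists_le_sylow
  have hPn : (P : Subgroup G).Normal := Sylow.normal_of_subsingleton P
  have hQn : (Q : Subgroup G).Normal := Sylow.normal_of_subsingleton Q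
  exact ⟨x, y, hx, hy, Subgroup.commute_of_normal_of_disjoint _ _ hPn hQn
    (IsPGroup.disjoint_of_ne 5 13 (by norm_num) _ _ P.isPGroup' Q.isPGroup') x y
    (hP (Subgroup.mem_zpowers x)) (hQ (Subgroup.mem_zpowers y))⟩

section lin

variable {V : Type u} [AddCommGroup V] [Module (ZMod 3) V] [Finite V]

/-- the order of `GL₄(3)` -/
theorem card_gl81 (hV : Nat.card V = 81) : Nat.card (V ≃ₗ[ZMod 3] V) = 24261120 := by
  have : Fact (Nat.Prime 3) := ⟨by norm_num⟩
  have : Fintype V := Fintype.ofFinite V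
  have hfr : Module.finrank (ZMod 3) V = 4 := by
    have h := Module.card_eq_pow_finrank (K := ZMod 3) (V := V)
    rw [← Nat.card_eq_fintype_card, hV, ZMod.card] at h
    have h4 : (3 : ℕ) ^ 4 = 3 ^ Module.finrank (ZMod 3) V := by rw [← h]; norm_num
    exact (Nat.pow_right_injective (a := 3) (by norm_num) h4).symm
  let b : Module.Basis (Fin 4) (ZMod 3) V := Module.finBasisOfFinrankEq (ZMod 3) V hfr
  have e1 : (V ≃ₗ[ZMod 3] V) ≃* GL (Fin 4) (ZMod 3) :=
    (LinearMap.GeneralLinearGroup.generalLinearEquiv (ZMod 3) V).symm.trans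
      (Units.mapEquiv (LinearMap.toMatrixAlgEquiv b).toMulEquiv)
  rw [Nat.card_congr e1.toEquiv, Matrix.card_GL_field, ZMod.card]
  decide

/-- the fixed vectors of a linear automorphism -/
def fixA (f : V ≃ₗ[ZMod 3] V) : AddSubgroup V where
  carrier := {v | f v = v}
  add_mem' := by
    intro a b ha hb
    change f a = a at ha; change f b = b at hb; change f (a + b) = a + b
    rw [map_add, ha, hb]
  zero_mem' := by simp
  neg_mem' := by
    intro a ha
    change f a = a at ha; change f (-a) = -a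
    rw [map_neg, ha]

theorem mem_fixA (f : V ≃ₗ[ZMod 3] V) (v : V) : v ∈ fixA f ↔ f v = v := Iff.rfl

/-- orbit counting for an automorphism of prime order -/
theorem card_fixA_modEq (f : V ≃ₗ[ZMod 3] V) (r : ℕ) [Fact r.Prime] (hf : orderOf f = r) :
    Nat.card V ≡ Nat.card (fixA f) [MOD r] := by
  have hp : IsPGroup r (Subgroup.zpowers f) :=
    IsPGroup.of_card (n := 1) (by rw [Nat.card_zpowers, hf, pow_one])
  have h := hp.card_modEq_card_fixedPoints V
  have heq : (MulAction.fixedPoints (Subgroup.zpowers f) V) = (fixA f : Set V) := by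
    ext v
    constructor
    · intro hv
      have := hv ⟨f, Subgroup.mem_zpowers f⟩
      exact this
    · intro hv x
      have hle : Subgroup.zpowers f ≤ MulAction.stabilizer (V ≃ₗ[ZMod 3] V) v := by
        rw [Subgroup.zpowers_le]
        exact hv
      exact hle x.2
  rw [heq] at h
  exact h

theorem card_fixA_pow (hV : Nat.card V = 81) (f : V ≃ₗ[ZMod 3] V) :
    ∃ j, j ≤ 4 ∧ Nat.card (fixA f) = 3 ^ j := by
  have h := AddSubgroup.card_addSubgroup_dvd_card (fixA f)
  rw [hV, show (81 : ℕ) = 3 ^ 4 by norm_num] at h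
  exact (Nat.dvd_prime_pow Nat.prime_three).1 h

theorem fixA_top_imp (f : V ≃ₗ[ZMod 3] V) (h : Nat.card (fixA f) = Nat.card V) : f = 1 := by
  have ht := AddSubgroup.eq_top_of_card_eq (fixA f) h
  ext v
  have : v ∈ fixA f := by rw [ht]; trivial
  exact this

/-- an automorphism of order `5` fixes no non-zero vector -/
theorem fix5 (hV : Nat.card V = 81) (f : V ≃ₗ[ZMod 3] V) (hf : orderOf f = 5) (v : V)
    (hv : f v = v) : v = 0 := by
  have : Fact (Nat.Prime 5) := ⟨by norm_num⟩
  have h := card_fixA_modEq f 5 hf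
  obtain ⟨j, hj, hc⟩ := card_fixA_pow hV f
  rw [hV, hc] at h
  have hj' : j = 0 ∨ j = 4 := by
    interval_cases j <;> first | (left; rfl) | (right; rfl) | exact absurd h (by decide)
  rcases hj' with rfl | rfl
  · have hb := AddSubgroup.eq_bot_of_card_eq (fixA f) (by rw [hc]; norm_num)
    have : v ∈ fixA f := hv
    rw [hb] at this
    exact this
  · have h1 := fixA_top_imp f (by rw [hc, hV]; norm_num)
    rw [h1, orderOf_one] at hf
    omega

/-- an automorphism of order `13` fixes exactly three vectors -/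
theorem fix13 (hV : Nat.card V = 81) (f : V ≃ₗ[ZMod 3] V) (hf : orderOf f = 13) :
    Nat.card (fixA f) = 3 := by
  have : Fact (Nat.Prime 13) := ⟨by norm_num⟩
  have h := card_fixA_modEq f 13 hf
  obtain ⟨j, hj, hc⟩ := card_fixA_pow hV f
  rw [hV, hc] at h
  have hj' : j = 1 ∨ j = 4 := by
    interval_cases j <;> first | (left; rfl) | (right; rfl) | exact absurd h (by decide)
  rcases hj' with rfl | rfl
  · rw [hc]; norm_num
  · have h1 := fixA_top_imp f (by rw [hc, hV]; norm_num)
    rw [h1, orderOf_one] at hf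
    omega

/-- no commuting automorphisms of orders `5` and `13` -/
theorem no_comm (hV : Nat.card V = 81) (h g : V ≃ₗ[ZMod 3] V) (hh : orderOf h = 5)
    (hg : orderOf g = 13) (hc : Commute h g) : False := by
  have h3 := fix13 hV g hg
  have hnt : Nontrivial (fixA g) := by
    rw [← Finite.one_lt_card_iff_nontrivial, h3]; norm_num
  obtain ⟨⟨v, hvm⟩, hv0⟩ := exists_ne (0 : fixA g)
  have hv0' : v ≠ 0 := fun h0 => hv0 (Subtype.ext h0)
  have hgv : g v = v := hvm
  -- the line through `v`
  let φ : ZMod 3 → fixA g := fun c => ⟨c • v, by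
    rw [mem_fixA, map_smul, hgv]⟩
  have hφ : Function.Injective φ := by
    intro c d hcd
    have h1 : c • v = d • v := congrArg Subtype.val hcd
    have h2 : (c - d) • v = 0 := by rw [sub_smul, h1, sub_self]
    rcases smul_eq_zero.mp h2 with h | h
    · exact sub_eq_zero.mp h
    · exact absurd h hv0'
  have hbij : Function.Bijective φ :=
    hφ.bijective_of_nat_card_le (by rw [h3, Nat.card_eq_fintype_card, ZMod.card])
  have hhv : h v ∈ fixA g := by
    rw [mem_fixA]
    have : (g * h) v = (h * g) v := by rw [hc.eq]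
    simp only [LinearEquiv.mul_apply] at this
    rw [this, hgv]
  obtain ⟨c, hcv⟩ := hbij.2 ⟨h v, hhv⟩
  have hcv' : c • v = h v := congrArg Subtype.val hcv
  have hc0 : c ≠ 0 := by
    rintro rfl
    rw [zero_smul] at hcv'
    exact hv0' ((map_eq_zero_iff h h.injective).mp hcv'.symm)
  have hcc : c * c = 1 := by
    have hall : ∀ d : ZMod 3, d ≠ 0 → d * d = 1 := by decide
    exact hall c hc0
  have h2 : (h ^ 2) v = v := by
    rw [pow_two, LinearEquiv.mul_apply, ← hcv', map_smul, ← hcv', smul_smul, hcc, one_smul]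
  have ho : orderOf (h ^ 2) = 5 := by
    rw [Nat.Coprime.orderOf_pow (by rw [hh]; norm_num), hh]
  exact hv0' (fix5 hV (h ^ 2) ho v h2)

end lin

/-- package [EXC81] -/
theorem pkgExc81 : Cfsg.Agent.Lib.Helper49.SAFI.PkgExc81.{u, v} := by
  intro V _ _ _ N _ _ ρ hV hsol h65
  have hfin : Finite (V ≃ₗ[ZMod 3] V) := Nat.finite_of_card_ne_zero (by rw [card_gl81 hV]; norm_num)
  have hd : Nat.card ρ.range ∣ 24261120 := by
    rw [← card_gl81 hV]
    exact Subgroup.card_subgroup_dvd_card _
  obtain ⟨m, hm⟩ := h65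
  have hm' : m ∣ 373248 := by
    rw [hm, show (24261120 : ℕ) = 65 * 373248 by norm_num] at hd
    exact Nat.dvd_of_mul_dvd_mul_left (by norm_num) hd
  have hcop : Nat.Coprime 65 m := Nat.Coprime.coprime_dvd_right hm' (by norm_num)
  obtain ⟨U, hU⟩ := Cfsg.Agent.Lib.Helper1.hall_exists (G := ρ.range) 65 m hm hcop
  obtain ⟨x, y, hx, hy, hxy⟩ := comm65 hU
  refine no_comm hV ((x : ρ.range) : V ≃ₗ[ZMod 3] V) ((y : ρ.range) : V ≃ₗ[ZMod 3] V) ?_ ?_ ?_
  · rw [Subgroup.orderOf_coe, Subgroup.orderOf_coe, hx]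
  · rw [Subgroup.orderOf_coe, Subgroup.orderOf_coe, hy]
  · have := hxy.eq
    have h2 : (((x * y : U) : ρ.range) : V ≃ₗ[ZMod 3] V) = (((y * x : U) : ρ.range) : V ≃ₗ[ZMod 3] V) := by
      rw [this]
    exact h2
end Cfsg.Agent.Lib.Helper93.SAF
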