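import Mathlib
import Cfsg.Agent.Lib.Helper31.OutCount
import Cfsg.Agent.Lib.Helper49.SAF.Iface

/-!
# SAF project (S4025), packages [GAM] and [ORD]

The group of semilinear maps `x ↦ a σ(x)` of a finite field of order `p ^ n` has order
`n (p ^ n - 1)`; consequently a group of such maps has order dividing `n (p ^ n - 1)`.
-/

set_option autoImplicit false

universe u v

namespace Cfsg.Agent.Lib.Helper93.SAF

open Cfsg.Agent.Lib.Helper49.HUP

section gl1

variable (F : Type) [Field F]

/-- the permutations `x ↦ a σ(x)` of a field -/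
def gl1 : Subgroup (Equiv.Perm F) where
  carrier := {s | ∃ (a : F) (σ : F ≃+* F), ∀ x, s x = a * σ x}
  one_mem' := ⟨1, RingEquiv.refl F, fun x => by simp⟩
  mul_mem' := by
    rintro s t ⟨a, σ, hs⟩ ⟨b, τ, ht⟩
    refine ⟨a * σ b, τ.trans σ, fun x => ?_⟩
    rw [Equiv.Perm.mul_apply, ht, hs, map_mul, RingEquiv.trans_apply, mul_assoc]
  inv_mem' := by
    rintro s ⟨a, σ, hs⟩
    have ha : a ≠ 0 := by
      rintro rfl
      have h1 : s 1 = s 0 := by rw [hs, hs, zero_mul, zero_mul]
      exact one_ne_zero (s.injective h1)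
    refine ⟨σ.symm a⁻¹, σ.symm, fun y => ?_⟩
    apply s.injective
    rw [Equiv.apply_symm_apply s y |> fun h => (show s (s⁻¹ y) = y from h), hs, map_mul, RingEquiv.apply_symm_apply,
      RingEquiv.apply_symm_apply, ← mul_assoc, mul_inv_cancel₀ ha, one_mul]

variable {F}

theorem mem_gl1 (s : Equiv.Perm F) :
    s ∈ gl1 F ↔ ∃ (a : F) (σ : F ≃+* F), ∀ x, s x = a * σ x := Iff.rfl

/-- the parametrisation of `gl1` -/
def gl1Par (c : Fˣ × (F ≃+* F)) : gl1 F :=
  ⟨{ toFun := fun x => (c.1 : F) * c.2 x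
     invFun := fun y => c.2.symm ((c.1 : F)⁻¹ * y)
     left_inv := fun x => by simp
     right_inv := fun y => by simp }, ⟨(c.1 : F), c.2, fun _ => rfl⟩⟩

theorem gl1Par_bijective : Function.Bijective (gl1Par (F := F)) := by
  constructor
  · rintro ⟨a, σ⟩ ⟨b, τ⟩ h
    have h1 : ∀ x : F, (a : F) * σ x = (b : F) * τ x := fun x =>
      congrArg (fun s : gl1 F => (s : Equiv.Perm F) x) h
    have hab : a = b := by
      apply Units.ext
      have := h1 1
      simpa using this
    subst hab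
    have hστ : σ = τ := by
      ext x
      exact mul_left_cancel₀ a.ne_zero (h1 x)
    rw [hστ]
  · rintro ⟨s, a, σ, hs⟩
    have ha : a ≠ 0 := by
      rintro rfl
      have h1 : s 1 = s 0 := by rw [hs, hs, zero_mul, zero_mul]
      exact one_ne_zero (s.injective h1)
    refine ⟨(Units.mk0 a ha, σ), ?_⟩
    apply Subtype.ext
    ext x
    exact (hs x).symm

theorem card_gl1 : Nat.card (gl1 F) = Nat.card Fˣ * Nat.card (F ≃+* F) := by
  rw [← Nat.card_prod]
  exact (Nat.card_congr (Equiv.ofBijective _ gl1Par_bijective)).symm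

theorem card_gl1_eq [Fintype F] {p n : ℕ} [Fact p.Prime] (hF : Fintype.card F = p ^ n) :
    Nat.card (gl1 F) = n * (p ^ n - 1) := by
  have : CharP F p := charP_of_card_eq_prime_pow hF
  rw [card_gl1, Cfsg.Agent.Lib.Helper31.card_ringAut_of_card p n hF, Nat.card_units,
    Nat.card_eq_fintype_card, hF, mul_comm]

end gl1

section gam

variable {p : ℕ} {V : Type u} [AddCommGroup V] [Module (ZMod p) V] {F : Type} [Field F]

/-- transport of a linear automorphism of `V` to a permutation of `F` -/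
def cj (e : V ≃+ F) : (V ≃ₗ[ZMod p] V) →* Equiv.Perm F where
  toFun f := (e.symm.toEquiv.trans f.toEquiv).trans e.toEquiv
  map_one' := by
    ext x
    simp
  map_mul' f g := by
    ext x
    simp

theorem cj_apply (e : V ≃+ F) (f : V ≃ₗ[ZMod p] V) (x : F) : cj e f x = e (f (e.symm x)) := rfl

theorem cj_injective (e : V ≃+ F) : Function.Injective (cj (p := p) e) := by
  intro f g h
  ext v
  have h1 : cj e f (e v) = cj e g (e v) := by rw [h]
  rw [cj_apply, cj_apply, AddEquiv.symm_apply_apply] at h1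
  exact e.injective h1

/-- the semilinear group of `V` with respect to the identification `e : V ≃+ F` -/
def gamS (e : V ≃+ F) : Subgroup (V ≃ₗ[ZMod p] V) := (gl1 F).comap (cj e)

theorem mem_gamS (e : V ≃+ F) (f : V ≃ₗ[ZMod p] V) :
    f ∈ gamS e ↔ ∃ (a : F) (σ : F ≃+* F), ∀ v, e (f v) = a * σ (e v) := by
  change cj e f ∈ gl1 F ↔ _
  rw [mem_gl1]
  constructor
  · rintro ⟨a, σ, h⟩
    refine ⟨a, σ, fun v => ?_⟩
    have := h (e v)
    rwa [cj_apply, AddEquiv.symm_apply_apply] at this
  · rintro ⟨a, σ, h⟩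
    refine ⟨a, σ, fun x => ?_⟩
    rw [cj_apply, h, AddEquiv.apply_symm_apply]

/-- [GAM] the order of the semilinear group divides `n (p ^ n - 1)` -/
theorem card_gamS_dvd [Fintype F] [Fact p.Prime] {n : ℕ} (hF : Fintype.card F = p ^ n)
    (e : V ≃+ F) : Nat.card (gamS (p := p) e) ∣ n * (p ^ n - 1) := by
  rw [← card_gl1_eq hF]
  exact Subgroup.card_comap_dvd_of_injective (gl1 F) (cj e) (cj_injective e)

end gam

/-- package [ORD] -/
theorem pkgOrd : Cfsg.Agent.Lib.Helper49.SAFI.PkgOrd.{u, v} := by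
  intro p n _ V _ _ _ N _ _ ρ hsemi hV hn
  obtain ⟨F, _, _, e, he⟩ := hsemi
  have hF : Fintype.card F = p ^ n := by
    rw [← Nat.card_eq_fintype_card, ← Nat.card_congr e.toEquiv, hV]
  have hle : ρ.range ≤ gamS e := by
    rintro f ⟨g, rfl⟩
    rw [mem_gamS]
    exact he g
  exact (Subgroup.card_dvd_of_le hle).trans (card_gamS_dvd hF e)

end Cfsg.Agent.Lib.Helper93.SAF
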