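import Mathlib
import Cfsg.Agent.Lib.Helper93.SAF.Ord
import Cfsg.Agent.Lib.Helper74.SAF.Cnt2

/-!
# SAF project (S4025), package [SDIV]

A semilinear group which is transitive on the additive subgroups of order `p ^ 2` forces
`(p ^ (n - 1) - 1) ∣ n (p ^ 2 - 1)`.  The count of the subgroups of order `p ^ 2` ([CNT2]) is a
hypothesis of `sdiv_of`.
-/

set_option autoImplicit false

universe u v

namespace Cfsg.Agent.Lib.Helper93.SAF

open Cfsg.Agent.Lib.Helper49.HUP Cfsg.Agent.Lib.Helper49.SAFI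
open scoped Pointwise

section

variable {p : ℕ} [Fact p.Prime] {V : Type u} [AddCommGroup V] [Module (ZMod p) V]

/-- additive subgroups are stable under scalars -/
theorem zmod_smul_mem (A : AddSubgroup V) (c : ZMod p) {v : V} (hv : v ∈ A) : c • v ∈ A := by
  have h : c • v = c.val • v := by
    rw [← Nat.cast_smul_eq_nsmul (ZMod p), ZMod.natCast_zmod_val]
  rw [h]
  exact A.nsmul_mem hv _

/-- the scalar automorphisms -/
def scal : (ZMod p)ˣ →* (V ≃ₗ[ZMod p] V) := DistribMulAction.toModuleAut (ZMod p) V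

theorem scal_apply (c : (ZMod p)ˣ) (v : V) : scal c v = (c : ZMod p) • v := rfl

theorem scal_injective [Nontrivial V] : Function.Injective (scal (p := p) (V := V)) := by
  intro c d h
  obtain ⟨v, hv⟩ := exists_ne (0 : V)
  have h1 : (c : ZMod p) • v = (d : ZMod p) • v := by
    rw [← scal_apply, ← scal_apply, h]
  have h2 : ((c : ZMod p) - (d : ZMod p)) • v = 0 := by rw [sub_smul, h1, sub_self]
  rcases smul_eq_zero.mp h2 with h | h
  · exact Units.ext (sub_eq_zero.mp h)
  · exact absurd h hv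

theorem scal_smul_subgroup (c : (ZMod p)ˣ) (A : AddSubgroup V) :
    (scal c : V ≃ₗ[ZMod p] V) • A = A := by
  ext x
  rw [AddSubgroup.mem_pointwise_smul_iff_inv_smul_mem]
  have h1 : (scal c : V ≃ₗ[ZMod p] V)⁻¹ • x = ((c⁻¹ : (ZMod p)ˣ) : ZMod p) • x := by
    rw [← map_inv, LinearEquiv.smul_def, scal_apply]
  rw [h1]
  constructor
  · intro h
    have := zmod_smul_mem A (c : ZMod p) h
    rwa [smul_smul, ← Units.val_mul, mul_inv_cancel, Units.val_one, one_smul] at this
  · intro h
    exact zmod_smul_mem A _ h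

/-- [SDIV] from the count [CNT2] -/
theorem sdiv_of {n : ℕ} [Finite V] {N : Type v} [Group N] (ρ : N →* (V ≃ₗ[ZMod p] V))
    (hsemi : Semi0 ρ) (ht : Trans2 ρ) (hV : Nat.card V = p ^ n) (hn : 2 ≤ n)
    (hcnt : Nat.card {A : AddSubgroup V // Nat.card A = p ^ 2} * ((p ^ 2 - 1) * (p ^ 2 - p)) =
      (p ^ n - 1) * (p ^ n - p)) :
    (p ^ (n - 1) - 1) ∣ n * (p ^ 2 - 1) := by
  obtain ⟨F, _, _, e, he⟩ := hsemi
  have hF : Fintype.card F = p ^ n := by
    rw [← Nat.card_eq_fintype_card, ← Nat.card_congr e.toEquiv, hV]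
  have hp : p.Prime := Fact.out
  have hp2 : 2 ≤ p := hp.two_le
  obtain ⟨m, rfl⟩ : ∃ m, n = m + 2 := ⟨n - 2, by omega⟩
  have hpm : 1 ≤ p ^ (m + 1) := Nat.one_le_pow _ _ (by omega)
  have hpn : p ^ (m + 2) = p * p ^ (m + 1) := by ring
  have hlt : p < p ^ (m + 2) := by
    rw [hpn]
    have : 2 ≤ p ^ (m + 1) := by
      calc 2 ≤ p := hp2
        _ = p ^ 1 := (pow_one p).symm
        _ ≤ p ^ (m + 1) := Nat.pow_le_pow_right (by omega) (by omega)
    nlinarith
  have hVnt : Nontrivial V := by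
    rw [← Finite.one_lt_card_iff_nontrivial, hV]
    omega
  have hΓ := card_gamS_dvd (p := p) hF e
  -- a subgroup of order `p ^ 2` exists
  have hX0 : Nat.card {A : AddSubgroup V // Nat.card A = p ^ 2} ≠ 0 := by
    intro h0
    rw [h0, zero_mul] at hcnt
    have : 0 < (p ^ (m + 2) - 1) * (p ^ (m + 2) - p) := Nat.mul_pos (by omega) (by omega)
    omega
  obtain ⟨⟨A₀, hA₀⟩⟩ : Nonempty {A : AddSubgroup V // Nat.card A = p ^ 2} := by
    by_contra hne
    rw [not_nonempty_iff] at hne
    exact hX0 Nat.card_of_isEmpty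
  -- the orbit of `A₀`
  have horb : MulAction.orbit (gamS (p := p) e) A₀ = {B : AddSubgroup V | Nat.card B = p ^ 2} := by
    ext B
    rw [MulAction.mem_orbit_iff]
    constructor
    · rintro ⟨γ, rfl⟩
      change Nat.card ((γ : V ≃ₗ[ZMod p] V) • A₀ : AddSubgroup V) = p ^ 2
      rw [AddSubgroup.pointwise_smul_def]
      have h1 := AddSubgroup.card_map_of_injective (K := A₀)
        (f := ((γ : V ≃ₗ[ZMod p] V) : V →ₗ[ZMod p] V).toAddMonoidHom)
        (γ : V ≃ₗ[ZMod p] V).injective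
      exact h1.trans hA₀
    · intro hB
      obtain ⟨g, hg⟩ := ht A₀ B hA₀ hB
      have hmem : ρ g ∈ gamS (p := p) e := by rw [mem_gamS]; exact he g
      refine ⟨⟨ρ g, hmem⟩, ?_⟩
      ext x
      change x ∈ (ρ g) • A₀ ↔ x ∈ B
      rw [AddSubgroup.mem_pointwise_smul_iff_inv_smul_mem, hg, LinearEquiv.smul_def]
      have : ρ g ((ρ g)⁻¹ x) = x := LinearEquiv.apply_symm_apply (ρ g) x
      rw [this]
  have hidx : (MulAction.stabilizer (gamS (p := p) e) A₀).index =
      Nat.card {A : AddSubgroup V // Nat.card A = p ^ 2} := by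
    rw [MulAction.index_stabilizer (gamS (p := p) e) A₀, horb]
    exact (Nat.card_coe_set_eq _).symm
  have hmul := Subgroup.card_mul_index (MulAction.stabilizer (gamS (p := p) e) A₀)
  rw [hidx] at hmul
  -- the scalars lie in the stabiliser
  have hsc : (p - 1) ∣ Nat.card (MulAction.stabilizer (gamS (p := p) e) A₀) := by
    have hmemΓ : ∀ c : (ZMod p)ˣ, scal c ∈ gamS (p := p) e := by
      intro c
      rw [mem_gamS]
      refine ⟨(((c : ZMod p).val : ℕ) : F), RingEquiv.refl F, fun v => ?_⟩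
      have h : (c : ZMod p) • v = (c : ZMod p).val • v := by
        rw [← Nat.cast_smul_eq_nsmul (ZMod p), ZMod.natCast_zmod_val]
      rw [scal_apply, h, map_nsmul, nsmul_eq_mul, RingEquiv.refl_apply]
    let ζ₁ : (ZMod p)ˣ →* gamS (p := p) e := (scal (p := p) (V := V)).codRestrict _ hmemΓ
    have hstab : ∀ c, ζ₁ c ∈ MulAction.stabilizer (gamS (p := p) e) A₀ := by
      intro c
      rw [MulAction.mem_stabilizer_iff]
      exact scal_smul_subgroup c A₀
    let ζ₂ : (ZMod p)ˣ →* MulAction.stabilizer (gamS (p := p) e) A₀ := ζ₁.codRestrict _ hstab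
    have hinj : Function.Injective ζ₂ := by
      intro c d h
      apply scal_injective (p := p) (V := V)
      have := congrArg (fun z : MulAction.stabilizer (gamS (p := p) e) A₀ =>
        ((z : gamS (p := p) e) : V ≃ₗ[ZMod p] V)) h
      exact this
    have := Subgroup.card_dvd_of_injective ζ₂ hinj
    rwa [Nat.card_units, Nat.card_zmod] at this
  -- arithmetic
  obtain ⟨s', hs'⟩ := hsc
  obtain ⟨k, hk⟩ := hΓ
  set x := Nat.card {A : AddSubgroup V // Nat.card A = p ^ 2} with hx
  set a := p ^ (m + 2) - 1 with ha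
  set b := p ^ (m + 1) - 1 with hb
  set c := p ^ 2 - 1 with hc
  set d := p - 1 with hd
  have e1 : p ^ 2 - p = p * d := by
    rw [hd, Nat.mul_sub, mul_one, pow_two]
  have e2 : p ^ (m + 2) - p = p * b := by
    rw [hb, Nat.mul_sub, mul_one, hpn]
  have hapos : 0 < a := by omega
  rw [e1, e2] at hcnt
  have hxcd : x * c * d = a * b := by
    apply Nat.eq_of_mul_eq_mul_left hp.pos
    calc p * (x * c * d) = x * (c * (p * d)) := by ring
      _ = a * (p * b) := hcnt
      _ = p * (a * b) := by ring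
  have hfin : a * ((m + 2) * c) = a * (b * (s' * k)) := by
    calc a * ((m + 2) * c) = ((m + 2) * a) * c := by ring
      _ = (Nat.card (gamS (p := p) e) * k) * c := by rw [hk]
      _ = (Nat.card (MulAction.stabilizer (gamS (p := p) e) A₀) * x * k) * c := by rw [← hmul]
      _ = (d * s' * x * k) * c := by rw [hs']
      _ = s' * k * (x * c * d) := by ring
      _ = s' * k * (a * b) := by rw [hxcd]
      _ = a * (b * (s' * k)) := by ring
  have := Nat.eq_of_mul_eq_mul_left hapos hfin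
  change b ∣ (m + 2) * c
  exact ⟨s' * k, this⟩

end

/-- package [SDIV] -/
theorem pkgSDiv : Cfsg.Agent.Lib.Helper49.SAFI.PkgSDiv.{u, v} := by
  intro p n _ V _ _ _ N _ _ ρ hsemi ht hV hn
  exact sdiv_of ρ hsemi ht hV hn (Cfsg.Agent.Lib.Helper74.SAF.cnt2 hV hn)

end Cfsg.Agent.Lib.Helper93.SAF
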